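import Cfsg.Agent.H664.Eight.Base
import Cfsg.Agent.H678.SuzGraph
import Cfsg.Agent.S1163
import Cfsg.Agent.UGT.End.MEleven
import Cfsg.Agent.SporadicB.J1.Main
import Cfsg.Prelude.Def_Exceptional
import Cfsg.Prelude.Def_Sporadic
import Cfsg.Prelude.Def_Spor_Mathieu
import Cfsg.Prelude.Def_Spor_J1

/-!
# S4899: Suzuki groups have six character degrees; order predicates (helper588)

* `ncard_sz` : a Suzuki group has exactly six character degrees;
* `isSuzuki_of_iso`, `isM11_of_iso`, `isJ1_of_iso` : the predicates by order.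
-/

set_option autoImplicit false

open Cfsg

namespace Cfsg.Agent.H588.Eight

universe u

/-- **six character degrees** -/
theorem ncard_sz {S : Type u} [Group S] (h : Lie.IsoSuzuki S) : (charDegrees S).ncard = 6 := by
  obtain ⟨F, _, _, m, hm, hF, ⟨e⟩⟩ := h
  have : Finite S := Finite.of_equiv _ e.toEquiv.symm
  obtain ⟨k, hk⟩ : ∃ k, k = 2 ^ (m - 1) := ⟨_, rfl⟩
  have hk1 : 1 ≤ k := hk ▸ Nat.one_le_two_pow
  have hk2 : 1 ≤ k ^ 2 := Nat.one_le_pow _ _ hk1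
  have hkk : k ≤ k ^ 2 := by nlinarith
  obtain ⟨t, ht⟩ : ∃ t, t + 1 = 8 * k ^ 2 := ⟨8 * k ^ 2 - 1, by omega⟩
  obtain ⟨a, ha⟩ : ∃ a, a = 8 * k ^ 2 + 4 * k + 1 := ⟨_, rfl⟩
  obtain ⟨b, hb⟩ : ∃ b, b + 4 * k = 8 * k ^ 2 + 1 := ⟨8 * k ^ 2 + 1 - 4 * k, by omega⟩
  have hdeg := H678.SuzGraph.mem_charDegrees hm hF ⟨e⟩ k t a b hk ht ha hb
  have ht7 : 7 ≤ t := by omega
  have h1 : 1 < t * (2 * k) := by nlinarith
  have h2 : t * (2 * k) < t * b := by
    refine Nat.mul_lt_mul_of_pos_left ?_ (by omega)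
    have : 0 < 8 * k ^ 2 + 1 - 6 * k := by
      have : 6 * k < 8 * k ^ 2 + 1 := by nlinarith
      omega
    omega
  have hk3 : k ≤ k ^ 3 := Nat.le_self_pow (by norm_num) k
  have hk31 : 1 ≤ k ^ 3 := Nat.one_le_pow _ _ hk1
  have h3' : t * b + 32 * k ^ 3 + 1 = 64 * k ^ 4 + 4 * k := by
    have e1 : (t + 1) * (b + 4 * k) = 8 * k ^ 2 * (8 * k ^ 2 + 1) := by rw [ht, hb]
    have e2 : (t + 1) * (b + 4 * k) = t * b + b + (t + 1) * (4 * k) := by ring
    have e3 : (t + 1) * (4 * k) = 32 * k ^ 3 := by rw [ht]; ring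
    have e4 : 8 * k ^ 2 * (8 * k ^ 2 + 1) = 64 * k ^ 4 + 8 * k ^ 2 := by ring
    omega
  have h3 : t * b < 64 * k ^ 4 := by omega
  have h5' : t * a + 4 * k + 1 = 64 * k ^ 4 + 32 * k ^ 3 := by
    have e1 : (t + 1) * a = 8 * k ^ 2 * (8 * k ^ 2 + 4 * k + 1) := by rw [ht, ha]
    have e2 : (t + 1) * a = t * a + a := by ring
    have e4 : 8 * k ^ 2 * (8 * k ^ 2 + 4 * k + 1) = 64 * k ^ 4 + 32 * k ^ 3 + 8 * k ^ 2 := by ring
    omega
  have h5 : 64 * k ^ 4 + 1 < t * a := by omega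
  refine H664.Eight.ncard_eq_of_list [1, t * (2 * k), t * b, 64 * k ^ 4, 64 * k ^ 4 + 1, t * a] ?_ ?_
  · simp only [List.nodup_cons, List.mem_cons, List.not_mem_nil, or_false, not_or, List.nodup_nil, and_true,
      not_false_eq_true]
    refine ⟨⟨?_, ?_, ?_, ?_, ?_⟩, ⟨?_, ?_, ?_, ?_⟩, ⟨?_, ?_, ?_⟩, ⟨?_, ?_⟩, ?_⟩ <;> omega
  · intro d
    rw [hdeg d]
    simp only [List.mem_cons, List.not_mem_nil, or_false]
    tauto

/-- the predicate by order -/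
theorem isSuzuki_of_iso {S : Type u} [Group S] [IsSimpleGroup S] (h : Lie.IsoSuzuki S) : IsSuzuki S := by
  obtain ⟨F, _, _, m, hm, hF, ⟨e⟩⟩ := h
  refine ⟨inferInstance, m, hm, ?_⟩
  rw [Nat.card_congr e.toEquiv, (S1163.result hm hF).1]
  ring

theorem isM11_of_iso {S : Type u} [Group S] (h : Spor.IsoM11 S) : IsM11 S := UGT.End.MEleven.isM11 h

theorem isJ1_of_iso {S : Type u} [Group S] (h : Spor.IsoJ1 S) : IsJ1 S := by
  obtain ⟨e⟩ := h
  have h1 := SporadicB.J1.Main.isJ1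
  have := h1.1
  refine ⟨?_, ?_⟩
  · have : Nontrivial S := e.toEquiv.nontrivial
    exact IsSimpleGroup.isSimpleGroup_of_surjective e.symm.toMonoidHom e.symm.surjective
  · rw [Nat.card_congr e.toEquiv]
    exact h1.2

end Cfsg.Agent.H588.Eight
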